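import Cfsg.Agent.TwoGroups.AltSylowSplit.Split

/-!
Decomposability of the Sylow two-subgroups of the alternating groups.
-/

set_option autoImplicit false
set_option linter.unusedSectionVars false

namespace Cfsg.Agent.TwoGroups.AltSylowSplit

open Equiv

theorem card_Wr {Ω : Type} [Fintype Ω] [DecidableEq Ω] (W : Sylow 2 (Perm Ω)) :
    Nat.card (Wr W) = Nat.card (W : Subgroup (Perm Ω)) * 2 ^ Fintype.card Ω := by
  let e : Wr W ≃ ↥(W : Subgroup (Perm Ω)) × (Ω → ZMod 2) :=
    { toFun := fun x => (⟨x.1.s, x.2⟩, x.1.c)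
      invFun := fun y => ⟨⟨y.1.1, y.2⟩, y.1.2⟩
      left_inv := fun _ => rfl
      right_inv := fun _ => rfl }
  rw [Nat.card_congr e, Nat.card_prod, Nat.card_fun, Nat.card_zmod, Nat.card_eq_fintype_card (α := Ω)]

theorem card_EvW {Ω : Type} [Fintype Ω] [DecidableEq Ω] (W : Sylow 2 (Perm Ω)) (i : Ω) :
    Nat.card (EvW W) * 2 = Nat.card (Wr W) := by
  let f : Wr W →* Multiplicative (ZMod 2) := El.par.comp (Wr W).subtype
  have hsurj : Function.Surjective f := fun u => by
    refine ⟨⟨⟨1, Pi.single i u.toAdd⟩, (mem_Wr W _).2 (one_mem _)⟩, ?_⟩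
    show Multiplicative.ofAdd (∑ j, (Pi.single i u.toAdd : Ω → ZMod 2) j) = u
    rw [Finset.sum_pi_single', if_pos (Finset.mem_univ _), ofAdd_toAdd]
  have hk : f.ker = (EvW W).subgroupOf (Wr W) := by
    ext x
    rw [MonoidHom.mem_ker, Subgroup.mem_subgroupOf, EvW, Subgroup.mem_inf, MonoidHom.mem_ker]
    exact ⟨fun h => ⟨x.2, h⟩, fun h => h.2⟩
  have h1 := f.ker.card_mul_index
  rw [Subgroup.index_ker, MonoidHom.range_eq_top.2 hsurj, Subgroup.card_top,
    Nat.card_congr Multiplicative.toAdd, Nat.card_zmod, hk,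
    Nat.card_congr (Subgroup.subgroupOfEquivOfLe (show EvW W ≤ Wr W from inf_le_left)).toEquiv] at h1
  exact h1

theorem card_W {m : ℕ} (W : Sylow 2 (Perm (Fin m))) :
    Nat.card (W : Subgroup (Perm (Fin m))) = 2 ^ (m.factorial).factorization 2 := by
  haveI := Fact.mk Nat.prime_two
  rw [W.card_eq_multiplicity, Nat.card_perm, Nat.card_fin]

theorem factorization_alt {n : ℕ} (hn : 2 ≤ n) :
    (Nat.card (alternatingGroup (Fin n))).factorization 2 = (n.factorial).factorization 2 - 1 := by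
  haveI : Nontrivial (Fin n) := Fin.nontrivial_iff_two_le.2 hn
  rw [nat_card_alternatingGroup, Nat.card_fin, Nat.factorization_div (Nat.dvd_factorial two_pos hn),
    Finsupp.tsub_apply, Nat.prime_two.factorization_self]

theorem fac_two (m r : ℕ) (hr : r < 2) :
    ((2 * m + r).factorial).factorization 2 = (m.factorial).factorization 2 + m := by
  haveI := Fact.mk Nat.prime_two
  simp only [Nat.factorization_def _ Nat.prime_two]
  rw [padicValNat_factorial_mul_add (p := 2) m hr, padicValNat_factorial_mul (p := 2) m]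

theorem sylow_equiv {G X : Type*} [Group G] [Finite G] [Group X] (φ : X →* G)
    (hφ : Function.Injective φ) (hc : Nat.card X = 2 ^ (Nat.card G).factorization 2)
    (P : Sylow 2 G) : Nonempty (X ≃* (P : Subgroup G)) := by
  haveI := Fact.mk Nat.prime_two
  let S : Sylow 2 G := Sylow.ofCard φ.range (by
    rw [← Nat.card_congr (MonoidHom.ofInjective hφ).toEquiv, hc])
  exact ⟨(MonoidHom.ofInjective hφ).trans
    ((MulEquiv.subgroupCongr (Sylow.coe_ofCard φ.range _).symm).trans (Sylow.equiv S P))⟩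

theorem transitive_iff {m : ℕ} (hm : 0 < m) (W : Sylow 2 (Perm (Fin m))) :
    (∀ i j, Rel W i j) ↔ ∃ r, m = 2 ^ r := by
  haveI := Fact.mk Nat.prime_two
  constructor
  · intro h
    obtain ⟨a, ha⟩ := W.isPGroup'.exists_card_eq
    have h1 : MulAction.orbit (W : Subgroup (Perm (Fin m))) (⟨0, hm⟩ : Fin m) = Set.univ :=
      Set.eq_univ_of_forall fun j => by
        obtain ⟨w, hw, hwj⟩ := h ⟨0, hm⟩ j
        exact ⟨⟨w, hw⟩, hwj⟩
    obtain ⟨r, hr⟩ := W.isPGroup'.card_orbit (⟨0, hm⟩ : Fin m)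
    rw [h1, Nat.card_coe_set_eq, Set.ncard_univ, Nat.card_fin] at hr
    exact ⟨r, hr⟩
  · rintro ⟨r, rfl⟩ i j
    haveI : NeZero (2 ^ r) := ⟨hm.ne'⟩
    let T : Multiplicative (Fin (2 ^ r)) →* Perm (Fin (2 ^ r)) :=
      { toFun := fun u => Equiv.addRight u.toAdd
        map_one' := by ext x; simp
        map_mul' := fun u v => by
          ext x
          simp [add_assoc, add_comm, add_left_comm] }
    have hT : IsPGroup 2 T.range := (IsPGroup.of_card (n := r) (by
      rw [Nat.card_congr Multiplicative.toAdd, Nat.card_fin])).of_surjective T.rangeRestrict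
        T.rangeRestrict_surjective
    obtain ⟨W', hW'⟩ := hT.exists_le_sylow
    obtain ⟨g, hg⟩ := MulAction.exists_smul_eq (Perm (Fin (2 ^ r))) W' W
    refine ⟨g * T (Multiplicative.ofAdd (g⁻¹ j - g⁻¹ i)) * g⁻¹, ?_, ?_⟩
    · rw [← hg, Sylow.coe_subgroup_smul, Subgroup.pointwise_smul_def]
      exact ⟨_, hW' ⟨_, rfl⟩, rfl⟩
    · show g (g⁻¹ i + (g⁻¹ j - g⁻¹ i)) = j
      rw [add_sub_cancel, Perm.inv_def, Equiv.apply_symm_apply]

theorem two_cases : ∀ (s : Perm (Fin 2)) (c : Fin 2 → ZMod 2), ∑ i, c i = 0 →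
    (s = 1 ∨ s = Equiv.swap 0 1) ∧ (c = 0 ∨ c = fun _ => 1) := by
  decide

theorem swap_two_ne : (Equiv.swap (0 : Fin 2) 1) ≠ 1 := by decide

theorem ones_ne : (fun _ => 1 : Fin 2 → ZMod 2) ≠ 0 := by decide

theorem ones_sum : ∑ i : Fin 2, (fun _ => 1 : Fin 2 → ZMod 2) i = 0 := by decide

theorem decG_small {m : ℕ} (hm : m = 2) (W : Sylow 2 (Perm (Fin m))) : DecG (EvW W) := by
  subst hm
  haveI := Fact.mk Nat.prime_two
  have htop : (W : Subgroup (Perm (Fin 2))) = ⊤ := Subgroup.eq_top_of_card_eq _ (by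
    rw [card_W, Nat.factorial_two, Nat.prime_two.factorization_self, pow_one, Nat.card_perm,
      Nat.card_fin, Nat.factorial_two])
  let a : EvW W := ⟨⟨Equiv.swap 0 1, 0⟩, (mem_EvW W _).2 ⟨htop ▸ Subgroup.mem_top _, by simp⟩⟩
  let b : EvW W := ⟨⟨1, fun _ => 1⟩, (mem_EvW W _).2 ⟨one_mem _, ones_sum⟩⟩
  have hab : ∀ x ∈ Subgroup.zpowers a, x.1.c = 0 := fun x hx => by
    obtain ⟨k, rfl⟩ := Subgroup.mem_zpowers_iff.1 hx
    induction k using Int.induction_on with
    | zero => rfl
    | succ k ih =>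
      rw [zpow_add_one]
      funext i
      show (a ^ (k : ℤ)).1.c _ + (0 : ZMod 2) = 0
      rw [ih (Subgroup.zpow_mem _ (Subgroup.mem_zpowers a) _), Pi.zero_apply, add_zero]
    | pred k ih =>
      rw [zpow_sub_one]
      funext i
      show (a ^ (-(k : ℤ))).1.c _ + (0 : ZMod 2) = 0
      rw [ih (Subgroup.zpow_mem _ (Subgroup.mem_zpowers a) _), Pi.zero_apply, add_zero]
  have hb : ∀ x ∈ Subgroup.zpowers b, x.1.s = 1 := fun x hx => by
    have h : Subgroup.zpowers b ≤ (El.proj.comp (EvW W).subtype).ker := by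
      rw [Subgroup.zpowers_le]; rfl
    exact h hx
  refine ⟨Subgroup.zpowers a, Subgroup.zpowers b, ?_, ?_, le_top, le_top, ?_, ?_, ?_⟩
  · rw [Subgroup.zpowers_ne_bot]
    exact fun h => swap_two_ne (congrArg (fun z : EvW W => z.1.s) h)
  · rw [Subgroup.zpowers_ne_bot]
    exact fun h => ones_ne (congrArg (fun z : EvW W => z.1.c) h)
  · intro x hx y hy
    obtain ⟨k, rfl⟩ := Subgroup.mem_zpowers_iff.1 hx
    obtain ⟨l, rfl⟩ := Subgroup.mem_zpowers_iff.1 hy
    refine Commute.zpow_zpow ?_ k l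
    refine Subtype.ext (El.ext ?_ (funext fun i => ?_))
    · show Equiv.swap (0 : Fin 2) 1 * 1 = 1 * Equiv.swap 0 1
      rw [mul_one, one_mul]
    · show (0 : ZMod 2) + 1 = 1 + 0
      rw [add_comm]
  · exact (Subgroup.eq_bot_iff_forall _).2 fun x hx =>
      Subtype.ext (El.ext (hb x hx.2) (hab x hx.1))
  · refine eq_top_iff.2 fun x _ => ?_
    obtain ⟨hs, hc⟩ := two_cases x.1.s x.1.c x.2.2
    have h1 : ∃ p ∈ Subgroup.zpowers a, p.1.s = x.1.s ∧ p.1.c = 0 := by
      rcases hs with h | h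
      · exact ⟨1, one_mem _, h.symm, rfl⟩
      · exact ⟨a, Subgroup.mem_zpowers a, h.symm, rfl⟩
    have h2 : ∃ q ∈ Subgroup.zpowers b, q.1.s = 1 ∧ q.1.c = x.1.c := by
      rcases hc with h | h
      · exact ⟨1, one_mem _, rfl, h.symm⟩
      · exact ⟨b, Subgroup.mem_zpowers b, rfl, h.symm⟩
    obtain ⟨p, hp, hp1, hp2⟩ := h1
    obtain ⟨q, hq, hq1, hq2⟩ := h2
    have hx : x = p * q := by
      refine Subtype.ext (El.ext ?_ (funext fun i => ?_))
      · show x.1.s = p.1.s * q.1.s
        rw [hp1, hq1, mul_one]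
      · show x.1.c i = p.1.c (q.1.s i) + q.1.c i
        rw [hp2, hq2, Pi.zero_apply, zero_add]
    rw [hx]
    exact Subgroup.mul_mem_sup hp hq

/-- Translation on two points. -/
def tau : Multiplicative (ZMod 2) →* Perm (ZMod 2) where
  toFun u := Equiv.addRight u.toAdd
  map_one' := by decide
  map_mul' := by decide

theorem sign_tau : ∀ u : Multiplicative (ZMod 2),
    Perm.sign (tau u) = if u.toAdd = 0 then 1 else -1 := by
  decide

/-- The criterion. -/
theorem main (n : ℕ) (hn : 4 ≤ n) (P : Sylow 2 (alternatingGroup (Fin n))) :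
    DecG (P : Subgroup (alternatingGroup (Fin n))) ↔
      (n = 4 ∨ n = 5 ∨ ((n % 4 = 2 ∨ n % 4 = 3) ∧ ∀ r : ℕ, 4 * (n / 4) ≠ 2 ^ r)) := by
  classical
  haveI := Fact.mk Nat.prime_two
  set k := n / 4 with hk
  obtain ⟨W⟩ : Nonempty (Sylow 2 (Perm (Fin (2 * k)))) := inferInstance
  have hk1 : 1 ≤ k := by omega
  by_cases hcase : n % 4 < 2
  · -- the even part
    set b := n % 4
    have hnb : n = 4 * k + b := (Nat.div_add_mod n 4).symm
    have hcard : Fintype.card ((Fin (2 * k) × ZMod 2) ⊕ Fin b) = n := by simp; omega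
    let e := Fintype.equivFinOfCardEq hcard
    let φ₀ : El (Fin (2 * k)) →* Perm (Fin n) :=
      e.permCongrHom.toMonoidHom.comp ((Perm.sumCongrHom _ _).comp
        ((MonoidHom.inl _ (Perm (Fin b))).comp El.toPerm))
    have hmem : ∀ x : EvW W, φ₀ x.1 ∈ alternatingGroup (Fin n) := fun x => by
      rw [Perm.mem_alternatingGroup]
      show Perm.sign (e.permCongr (Equiv.sumCongr (El.toPerm x.1) 1)) = 1
      rw [Perm.sign_permCongr, Perm.sign_sumCongr, map_one, mul_one, El.sign_toPerm]
      exact x.2.2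
    let φ : EvW W →* alternatingGroup (Fin n) :=
      (φ₀.comp (EvW W).subtype).codRestrict (alternatingGroup (Fin n)) hmem
    have hφ : Function.Injective φ := fun x y h => by
      have h' := e.permCongrHom.injective (congrArg Subtype.val h : φ₀ x.1 = φ₀ y.1)
      exact Subtype.ext (El.toPerm_injective (congrArg Prod.fst (Perm.sumCongrHom_injective h')))
    have hc : Nat.card (EvW W) = 2 ^ (Nat.card (alternatingGroup (Fin n))).factorization 2 := by
      have h1 := card_EvW W ⟨0, by omega⟩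
      rw [card_Wr, card_W, Fintype.card_fin, ← pow_add] at h1
      rw [factorization_alt (by omega : 2 ≤ n), hnb, show 4 * k + b = 2 * (2 * k) + b by ring,
        fac_two (2 * k) b hcase]
      have h3 : ((2 * k).factorial).factorization 2 + 2 * k =
          ((2 * k).factorial).factorization 2 + 2 * k - 1 + 1 := by omega
      rw [h3, pow_succ] at h1
      exact Nat.eq_of_mul_eq_mul_right two_pos h1
    obtain ⟨E⟩ := sylow_equiv φ hφ hc P
    rw [← decG_iff E]
    by_cases hk2 : k = 1
    · refine iff_of_true ?_ (by omega)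
      exact decG_small (by omega) W
    · refine iff_of_false (not_decG_EvW W ?_ ?_) (by omega)
      · simp
      · simp; omega
  · set b := n % 4 - 2
    have hb : b < 2 := by omega
    have hnb : n = 4 * k + 2 + b := by omega
    have hcard : Fintype.card (((Fin (2 * k) × ZMod 2) ⊕ ZMod 2) ⊕ Fin b) = n := by simp; omega
    let e := Fintype.equivFinOfCardEq hcard
    let φ₀ : El (Fin (2 * k)) →* Perm (Fin n) :=
      e.permCongrHom.toMonoidHom.comp ((Perm.sumCongrHom _ _).comp
        ((MonoidHom.inl _ (Perm (Fin b))).comp ((Perm.sumCongrHom _ _).comp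
          (El.toPerm.prod (tau.comp El.par)))))
    have hmem : ∀ x : Wr W, φ₀ x.1 ∈ alternatingGroup (Fin n) := fun x => by
      rw [Perm.mem_alternatingGroup]
      show Perm.sign (e.permCongr (Equiv.sumCongr (Equiv.sumCongr (El.toPerm x.1) (tau (El.par x.1))) 1)) = 1
      rw [Perm.sign_permCongr, Perm.sign_sumCongr, map_one, mul_one, Perm.sign_sumCongr]
      rw [sign_tau]
      show Perm.sign (El.toPerm x.1) * (if (∑ i, x.1.c i) = 0 then 1 else -1) = 1
      split_ifs with h
      · rw [(El.sign_toPerm x.1).2 h, mul_one]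
      · rcases Int.units_eq_one_or (Perm.sign (El.toPerm x.1)) with h1 | h1
        · exact absurd ((El.sign_toPerm x.1).1 h1) h
        · rw [h1]; rfl
    let φ : Wr W →* alternatingGroup (Fin n) :=
      (φ₀.comp (Wr W).subtype).codRestrict (alternatingGroup (Fin n)) hmem
    have hφ : Function.Injective φ := fun x y h => by
      have h' := e.permCongrHom.injective (congrArg Subtype.val h : φ₀ x.1 = φ₀ y.1)
      have h'' := Perm.sumCongrHom_injective (congrArg Prod.fst (Perm.sumCongrHom_injective h'))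
      exact Subtype.ext (El.toPerm_injective (congrArg Prod.fst h''))
    have hc : Nat.card (Wr W) = 2 ^ (Nat.card (alternatingGroup (Fin n))).factorization 2 := by
      rw [card_Wr, card_W, Fintype.card_fin, ← pow_add, factorization_alt (by omega : 2 ≤ n), hnb,
        show 4 * k + 2 + b = 2 * (2 * k + 1) + b by ring, fac_two (2 * k + 1) b hb,
        show (2 * k + 1).factorial.factorization 2 = (2 * k).factorial.factorization 2 by
          rw [fac_two k 1 one_lt_two, show 2 * k = 2 * k + 0 by rfl, fac_two k 0 two_pos]]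
      congr 1
    obtain ⟨E⟩ := sylow_equiv φ hφ hc P
    rw [← decG_iff E]
    have hiff := transitive_iff (by omega : 0 < 2 * k) W
    by_cases htr : ∀ i j, Rel W i j
    · refine iff_of_false (not_decG_Wr W htr) ?_
      obtain ⟨r, hr⟩ := hiff.1 htr
      rintro (h | h | ⟨-, h⟩)
      · omega
      · omega
      · exact h (r + 1) (by rw [pow_succ]; omega)
    · refine iff_of_true ?_ (Or.inr (Or.inr ⟨by omega, fun r hr => htr (hiff.2 ?_)⟩))
      · push Not at htr
        obtain ⟨i, j, hij⟩ := htr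
        exact decG_Wr_of_split W (S := fun x => Rel W i x)
          (fun w hw x hx => rel_trans W hx ⟨w, hw, rfl⟩) i j (rel_refl W i) hij
      · rcases r with _ | r
        · simp at hr
        · exact ⟨r, by rw [pow_succ] at hr; omega⟩

end Cfsg.Agent.TwoGroups.AltSylowSplit
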