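import Cfsg.Prelude.Def_TwoFusion
import Mathlib

/-!
The affine model `F₂^Ω ⋊ W` of the Sylow two-subgroups of symmetric and alternating groups, and
direct decomposability.
-/

set_option autoImplicit false

namespace Cfsg.Agent.TwoGroups.AltSylowSplit

open Equiv

/-- The group has a decomposition as a direct product of two nontrivial subgroups. -/
def DecG (G : Type*) [Group G] : Prop :=
  ∃ A B : Subgroup G, A ≠ ⊥ ∧ B ≠ ⊥ ∧ Cfsg.IsInternalDirectProduct A B (⊤ : Subgroup G)

theorem decG_of_equiv {G H : Type*} [Group G] [Group H] (e : G ≃* H) (h : DecG G) : DecG H := by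
  obtain ⟨A, B, hA, hB, -, -, hc, hi, hs⟩ := h
  have hinj : Function.Injective e.toMonoidHom := e.injective
  refine ⟨A.map e.toMonoidHom, B.map e.toMonoidHom, ?_, ?_, le_top, le_top, ?_, ?_, ?_⟩
  · rwa [Ne, Subgroup.map_eq_bot_iff_of_injective _ hinj]
  · rwa [Ne, Subgroup.map_eq_bot_iff_of_injective _ hinj]
  · rintro _ ⟨a, ha, rfl⟩ _ ⟨b, hb, rfl⟩
    rw [← map_mul, ← map_mul, hc a ha b hb]
  · rw [← Subgroup.map_inf _ _ _ hinj, hi, Subgroup.map_bot]
  · rw [← Subgroup.map_sup, hs]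
    exact Subgroup.map_top_of_surjective _ e.surjective

theorem decG_iff {G H : Type*} [Group G] [Group H] (e : G ≃* H) : DecG G ↔ DecG H :=
  ⟨decG_of_equiv e, decG_of_equiv e.symm⟩

theorem dec_subgroup_iff {G : Type*} [Group G] (P : Subgroup G) :
    (∃ A B : Subgroup G, A ≠ ⊥ ∧ B ≠ ⊥ ∧ Cfsg.IsInternalDirectProduct A B P) ↔ DecG P := by
  have hinj : Function.Injective P.subtype := Subtype.val_injective
  constructor
  · rintro ⟨A, B, hA, hB, hAP, hBP, hc, hi, hs⟩
    have hA' : (A.subgroupOf P).map P.subtype = A := Subgroup.map_subgroupOf_eq_of_le hAP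
    have hB' : (B.subgroupOf P).map P.subtype = B := Subgroup.map_subgroupOf_eq_of_le hBP
    refine ⟨A.subgroupOf P, B.subgroupOf P, fun h => hA ?_, fun h => hB ?_, le_top, le_top,
      fun a ha b hb => Subtype.ext (hc a ha b hb), ?_, ?_⟩
    · rw [← hA', h, Subgroup.map_bot]
    · rw [← hB', h, Subgroup.map_bot]
    · apply Subgroup.map_injective hinj
      rw [Subgroup.map_inf _ _ _ hinj, hA', hB', hi, Subgroup.map_bot]
    · apply Subgroup.map_injective hinj
      rw [Subgroup.map_sup, hA', hB', hs, ← MonoidHom.range_eq_map, Subgroup.range_subtype]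
  · rintro ⟨A, B, hA, hB, -, -, hc, hi, hs⟩
    refine ⟨A.map P.subtype, B.map P.subtype, ?_, ?_, Subgroup.map_subtype_le _,
      Subgroup.map_subtype_le _, ?_, ?_, ?_⟩
    · rwa [Ne, Subgroup.map_eq_bot_iff_of_injective _ hinj]
    · rwa [Ne, Subgroup.map_eq_bot_iff_of_injective _ hinj]
    · rintro _ ⟨a, ha, rfl⟩ _ ⟨b, hb, rfl⟩
      rw [← map_mul, ← map_mul, hc a ha b hb]
    · rw [← Subgroup.map_inf _ _ _ hinj, hi, Subgroup.map_bot]
    · rw [← Subgroup.map_sup, hs, ← MonoidHom.range_eq_map, Subgroup.range_subtype]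

theorem exists_mul {G : Type*} [Group G] {A B : Subgroup G}
    (hc : ∀ a ∈ A, ∀ b ∈ B, a * b = b * a) (hs : A ⊔ B = ⊤) (g : G) :
    ∃ a ∈ A, ∃ b ∈ B, g = a * b := by
  have hg : g ∈ A ⊔ B := hs ▸ Subgroup.mem_top g
  rw [sup_comm] at hg
  haveI : B.Normal := ⟨fun b hb x => by
    have hx : x ∈ Subgroup.normalizer (B : Set G) := by
      refine (sup_le ?_ Subgroup.le_normalizer : A ⊔ B ≤ _) (hs ▸ Subgroup.mem_top x)
      intro a ha
      rw [Subgroup.mem_normalizer_iff]
      intro y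
      constructor
      · intro hy
        have : a * y * a⁻¹ = y := by rw [hc a ha y hy, mul_inv_cancel_right]
        rwa [this]
      · intro hy
        have : a * y * a⁻¹ = a⁻¹ * (a * y * a⁻¹) * a := by
          rw [hc a⁻¹ (A.inv_mem ha) _ hy, inv_mul_cancel_right]
        have hy' : y = a * y * a⁻¹ := by
          conv_lhs => rw [show y = a⁻¹ * (a * y * a⁻¹) * a by group]
          exact this.symm
        rwa [hy']
    exact (Subgroup.mem_normalizer_iff.1 hx b).1 hb⟩
  obtain ⟨b, hb, a, ha, rfl⟩ := Subgroup.mem_sup_of_normal_left.1 hg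
  exact ⟨a, ha, b, hb, (hc a ha b hb).symm⟩

theorem not_decG_of_center {p : ℕ} [Fact p.Prime] {G : Type*} [Group G] [Finite G]
    (hG : IsPGroup p G) (z : G) (hz : ∀ x ∈ Subgroup.center G, x = 1 ∨ x = z) : ¬ DecG G := by
  rintro ⟨A, B, hA, hB, -, -, hc, hi, hs⟩
  have key : ∀ C : Subgroup G, ∀ D : Subgroup G, C ≠ ⊥ → (∀ a ∈ C, ∀ b ∈ D, a * b = b * a) →
      C ⊔ D = ⊤ → z ∈ C ∧ z ≠ 1 := by
    intro C D hC hcd hsd
    haveI : Nontrivial C := (Subgroup.nontrivial_iff_ne_bot C).2 hC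
    haveI : Nontrivial (Subgroup.center C) := (hG.to_subgroup C).center_nontrivial
    obtain ⟨⟨⟨c, hcC⟩, hcz⟩, hne⟩ := exists_ne (1 : Subgroup.center C)
    have hcent : c ∈ Subgroup.center G := by
      refine Subgroup.mem_center_iff.2 fun g => ?_
      obtain ⟨a, ha, b, hb, rfl⟩ := exists_mul hcd hsd g
      have h1 : a * c = c * a := congrArg Subtype.val (Subgroup.mem_center_iff.1 hcz ⟨a, ha⟩)
      rw [mul_assoc, ← hcd c hcC b hb, ← mul_assoc, h1, mul_assoc]
    have hc1 : c ≠ 1 := fun h => hne (Subtype.ext (Subtype.ext h))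
    rcases hz c hcent with h | h
    · exact absurd h hc1
    · exact ⟨h ▸ hcC, h ▸ hc1⟩
  obtain ⟨h1, hne⟩ := key A B hA hc hs
  obtain ⟨h2, -⟩ := key B A hB (fun b hb a ha => (hc a ha b hb).symm) (by rw [sup_comm]; exact hs)
  exact hne (Subgroup.mem_bot.1 (hi ▸ Subgroup.mem_inf.2 ⟨h1, h2⟩))

/-- An element of `F₂^Ω ⋊ Sym(Ω)`. -/
@[ext] structure El (Ω : Type) where
  /-- The permutation part. -/
  s : Perm Ω
  /-- The vector part. -/
  c : Ω → ZMod 2

namespace El

variable {Ω : Type}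

instance : One (El Ω) := ⟨⟨1, 0⟩⟩
instance : Mul (El Ω) := ⟨fun a b => ⟨a.s * b.s, fun i => a.c (b.s i) + b.c i⟩⟩
instance : Inv (El Ω) := ⟨fun a => ⟨a.s⁻¹, fun i => a.c (a.s⁻¹ i)⟩⟩

theorem one_s : (1 : El Ω).s = 1 := rfl
theorem one_c : (1 : El Ω).c = 0 := rfl
theorem mul_s (a b : El Ω) : (a * b).s = a.s * b.s := rfl
theorem mul_c (a b : El Ω) (i : Ω) : (a * b).c i = a.c (b.s i) + b.c i := rfl
theorem inv_s (a : El Ω) : a⁻¹.s = a.s⁻¹ := rfl
theorem inv_c (a : El Ω) (i : Ω) : a⁻¹.c i = a.c (a.s⁻¹ i) := rfl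

instance : Group (El Ω) :=
  Group.ofLeftAxioms
    (fun a b c => El.ext (mul_assoc _ _ _) (funext fun i => by
      simp only [mul_c, mul_s, Perm.mul_apply, add_assoc]))
    (fun a => El.ext (one_mul _) (funext fun i => by simp [mul_c, one_c]))
    (fun a => El.ext (inv_mul_cancel _) (funext fun i => by
      simp only [mul_c, inv_c, one_c, Pi.zero_apply, Equiv.symm_apply_apply, Perm.inv_def, CharTwo.add_self_eq_zero]))

instance [Fintype Ω] [DecidableEq Ω] : Finite (El Ω) :=
  Finite.of_injective (fun a => (a.s, a.c)) fun a b h =>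
    El.ext (congrArg Prod.fst h) (congrArg Prod.snd h)

/-- The permutation part as a homomorphism. -/
def proj : El Ω →* Perm Ω where
  toFun := El.s
  map_one' := rfl
  map_mul' _ _ := rfl

/-- The action on `Ω × F₂`. -/
def toPerm : El Ω →* Perm (Ω × ZMod 2) where
  toFun a :=
    { toFun := fun x => (a.s x.1, x.2 + a.c x.1)
      invFun := fun x => (a.s⁻¹ x.1, x.2 + a.c (a.s⁻¹ x.1))
      left_inv := fun x => by
        simp [add_assoc, CharTwo.add_self_eq_zero]
      right_inv := fun x => by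
        simp [add_assoc, CharTwo.add_self_eq_zero] }
  map_one' := by ext x <;> simp [one_s, one_c]
  map_mul' a b := by
    ext x
    · rfl
    · show x.2 + (a.c (b.s x.1) + b.c x.1) = x.2 + b.c x.1 + a.c (b.s x.1)
      abel

theorem toPerm_injective : Function.Injective (toPerm (Ω := Ω)) := fun a b h => by
  refine El.ext (Equiv.ext fun i => ?_) (funext fun i => ?_)
  · exact congrArg Prod.fst (Equiv.ext_iff.1 h (i, 0))
  · simpa [toPerm] using congrArg Prod.snd (Equiv.ext_iff.1 h (i, 0))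

variable [Fintype Ω] [DecidableEq Ω]

/-- The parity of the vector part. -/
def par : El Ω →* Multiplicative (ZMod 2) where
  toFun a := Multiplicative.ofAdd (∑ i, a.c i)
  map_one' := by simp [one_c]
  map_mul' a b := by
    rw [← ofAdd_add]
    congr 1
    simp only [mul_c, Finset.sum_add_distrib, Equiv.sum_comp b.s a.c]

theorem sign_toPerm (a : El Ω) : Perm.sign (toPerm a) = 1 ↔ ∑ i, a.c i = 0 := by
  have h : toPerm a = Equiv.prodCongrLeft (fun _ : ZMod 2 => a.s) *
      Equiv.prodCongrRight (fun i => Equiv.addRight (a.c i)) := by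
    ext x <;> simp [toPerm]
  have hs : ∀ x : ZMod 2, Perm.sign (Equiv.addRight x) = (-1 : ℤˣ) ^ x.val := by decide
  rw [h, map_mul, Perm.sign_prodCongrLeft, Finset.prod_const, Finset.card_univ, ZMod.card,
    Int.units_sq, one_mul, Perm.sign_prodCongrRight, Finset.prod_congr rfl fun i _ => hs (a.c i),
    Finset.prod_pow_eq_pow_sum, neg_one_pow_eq_one_iff_even (by decide), ← ZMod.natCast_eq_zero_iff_even]
  push_cast
  simp only [ZMod.natCast_zmod_val]

end El

end Cfsg.Agent.TwoGroups.AltSylowSplit
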