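import Cfsg.Agent.TwoGroups.AltSylowSplit.Model

/-!
When are `F₂^Ω ⋊ W` and its even part decomposable, for `W` a Sylow two-subgroup of `Sym(Ω)`?
-/

set_option autoImplicit false
set_option linter.unusedSectionVars false

namespace Cfsg.Agent.TwoGroups.AltSylowSplit

open Equiv

variable {Ω : Type} [Fintype Ω] [DecidableEq Ω] (W : Sylow 2 (Perm Ω))

/-- The whole affine group over `W`. -/
def Wr : Subgroup (El Ω) := (W : Subgroup (Perm Ω)).comap El.proj

/-- Its even part. -/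
def EvW : Subgroup (El Ω) := Wr W ⊓ El.par.ker

theorem z2_one : ∀ u : ZMod 2, u ≠ 0 → u = 1 := by decide

theorem z2_ite : ∀ u : ZMod 2, u = if u = 1 then 1 else 0 := by decide

theorem z2_cases : ∀ u : ZMod 2, u = 1 ∨ u = 0 := by decide

theorem z2_three : ∀ a b c : ZMod 2, a + c + (b + c) = a + b := by decide

theorem mem_Wr (x : El Ω) : x ∈ Wr W ↔ x.s ∈ (W : Subgroup (Perm Ω)) := Iff.rfl

theorem mem_EvW (x : El Ω) : x ∈ EvW W ↔ x.s ∈ (W : Subgroup (Perm Ω)) ∧ ∑ i, x.c i = 0 :=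
  Iff.rfl

/-- Two points in one orbit of `W`. -/
def Rel (i j : Ω) : Prop := ∃ w ∈ (W : Subgroup (Perm Ω)), w i = j

theorem rel_refl (i : Ω) : Rel W i i := ⟨1, one_mem _, rfl⟩

theorem rel_symm {i j : Ω} : Rel W i j → Rel W j i := by
  rintro ⟨w, hw, rfl⟩
  exact ⟨w⁻¹, inv_mem hw, w.symm_apply_apply i⟩

theorem rel_trans {i j k : Ω} : Rel W i j → Rel W j k → Rel W i k := by
  rintro ⟨w, hw, rfl⟩ ⟨v, hv, rfl⟩
  exact ⟨v * w, mul_mem hv hw, rfl⟩

theorem apply_iff {S : Ω → Prop} (hS : ∀ w ∈ (W : Subgroup (Perm Ω)), ∀ i, S i → S (w i))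
    {w : Perm Ω} (hw : w ∈ (W : Subgroup (Perm Ω))) (i : Ω) : S (w i) ↔ S i := by
  refine ⟨fun h => ?_, hS w hw i⟩
  have := hS w⁻¹ (inv_mem hw) _ h
  rwa [Perm.inv_def, Equiv.symm_apply_apply] at this

theorem exists_piece {S : Ω → Prop} [DecidablePred S]
    (hS : ∀ w ∈ (W : Subgroup (Perm Ω)), ∀ i, S i → S (w i)) {w : Perm Ω}
    (hw : w ∈ (W : Subgroup (Perm Ω))) :
    ∃ v ∈ (W : Subgroup (Perm Ω)), ∀ i, v i = if S i then w i else i := by
  let fn : ↥(W : Subgroup (Perm Ω)) × ↥(W : Subgroup (Perm Ω)) → Ω → Ω :=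
    fun ab i => if S i then ab.1.1 i else ab.2.1 i
  have hfn : ∀ ab cd, ∀ i, fn ab (fn cd i) = fn (ab * cd) i := by
    intro ab cd i
    by_cases h : S i
    · have h' : S (cd.1.1 i) := hS _ cd.1.2 i h
      simp only [fn, if_pos h, if_pos h', Prod.fst_mul, Subgroup.coe_mul, Perm.mul_apply]
    · have h' : ¬ S (cd.2.1 i) := fun h2 => h ((apply_iff W hS cd.2.2 i).1 h2)
      simp only [fn, if_neg h, if_neg h', Prod.snd_mul, Subgroup.coe_mul, Perm.mul_apply]
  have h1 : ∀ i, fn 1 i = i := fun i => by simp [fn]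
  let φ : ↥(W : Subgroup (Perm Ω)) × ↥(W : Subgroup (Perm Ω)) →* Perm Ω :=
    { toFun := fun ab => ⟨fn ab, fn ab⁻¹, fun i => by rw [hfn, inv_mul_cancel, h1],
        fun i => by rw [hfn, mul_inv_cancel, h1]⟩
      map_one' := Equiv.ext h1
      map_mul' := fun ab cd => Equiv.ext fun i => (hfn ab cd i).symm }
  have hle : (W : Subgroup (Perm Ω)) ≤ φ.range := fun u hu =>
    ⟨(⟨u, hu⟩, ⟨u, hu⟩), Equiv.ext fun i => by simp [φ, fn]⟩
  have hp : IsPGroup 2 (↥(W : Subgroup (Perm Ω)) × ↥(W : Subgroup (Perm Ω))) := by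
    haveI := Fact.mk Nat.prime_two
    obtain ⟨a, ha⟩ := W.isPGroup'.exists_card_eq
    exact IsPGroup.of_card (n := a + a) (by rw [Nat.card_prod, ha, pow_add])
  have heq : φ.range = (W : Subgroup (Perm Ω)) :=
    W.is_maximal' (hp.of_surjective φ.rangeRestrict φ.rangeRestrict_surjective) hle
  refine ⟨φ (⟨w, hw⟩, 1), (congrArg (fun K : Subgroup (Perm Ω) => φ (⟨w, hw⟩, 1) ∈ K) heq).mp ⟨_, rfl⟩, fun i => ?_⟩
  show fn _ i = _
  simp [fn]

theorem decG_Wr_of_split {S : Ω → Prop} (hS : ∀ w ∈ (W : Subgroup (Perm Ω)), ∀ i, S i → S (w i))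
    (i₀ i₁ : Ω) (h₀ : S i₀) (h₁ : ¬ S i₁) : DecG (Wr W) := by
  classical
  let sub : ∀ T : Ω → Prop, Subgroup (El Ω) := fun T =>
    { carrier := {x | ∀ i, ¬ T i → x.s i = i ∧ x.c i = 0}
      one_mem' := fun i _ => ⟨rfl, rfl⟩
      mul_mem' := fun {x y} hx hy i hi => by
        simp only [El.mul_s, El.mul_c, Perm.mul_apply, (hy i hi).1, (hx i hi).1, (hx i hi).2,
          (hy i hi).2, add_zero, and_self]
      inv_mem' := fun {x} hx i hi => by
        have h : x.s⁻¹ i = i := by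
          rw [Perm.inv_def, Equiv.symm_apply_eq]; exact (hx i hi).1.symm
        simp only [El.inv_s, El.inv_c, h, (hx i hi).2, and_self] }
  have hmem : ∀ T (x : El Ω), x ∈ sub T ↔ ∀ i, ¬ T i → x.s i = i ∧ x.c i = 0 := fun T x => Iff.rfl
  let A := (sub S).subgroupOf (Wr W)
  let B := (sub fun i => ¬ S i).subgroupOf (Wr W)
  have hs0 : ∀ T : Ω → Prop, ∀ i, T i → ((sub T).subgroupOf (Wr W)) ≠ ⊥ := by
    intro T i hi h
    have hz : (⟨1, Pi.single i 1⟩ : El Ω) ∈ Wr W := (mem_Wr W _).2 (one_mem _)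
    have : (⟨_, hz⟩ : Wr W) ∈ (sub T).subgroupOf (Wr W) := by
      rw [Subgroup.mem_subgroupOf, hmem]
      intro j hj
      have : j ≠ i := fun e => hj (e ▸ hi)
      exact ⟨rfl, Pi.single_eq_of_ne this 1⟩
    rw [h, Subgroup.mem_bot, Subtype.ext_iff] at this
    simpa [El.one_c] using congrFun (congrArg El.c this) i
  refine ⟨A, B, hs0 S i₀ h₀, hs0 _ i₁ h₁, le_top, le_top, ?_, ?_, ?_⟩
  · rintro ⟨a, haW⟩ ha ⟨b, hbW⟩ hb
    rw [Subgroup.mem_subgroupOf, hmem] at ha hb
    have haS : ∀ i, S (a.s i) ↔ S i := apply_iff W hS haW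
    have hbS : ∀ i, S (b.s i) ↔ S i := apply_iff W hS hbW
    refine Subtype.ext (El.ext (Equiv.ext fun i => ?_) (funext fun i => ?_))
    · show a.s (b.s i) = b.s (a.s i)
      by_cases h : S i
      · rw [(hb i (not_not.2 h)).1, (hb (a.s i) (not_not.2 ((haS i).2 h))).1]
      · rw [(ha i h).1, (ha (b.s i) (fun h' => h ((hbS i).1 h'))).1]
    · show a.c (b.s i) + b.c i = b.c (a.s i) + a.c i
      by_cases h : S i
      · obtain ⟨e1, e2⟩ := hb i (not_not.2 h)
        rw [e1, e2, (hb (a.s i) (not_not.2 ((haS i).2 h))).2, add_comm]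
      · obtain ⟨e1, e2⟩ := ha i h
        rw [e1, e2, (ha (b.s i) (fun h' => h ((hbS i).1 h'))).2, add_comm]
  · refine (Subgroup.eq_bot_iff_forall _).2 fun x hx => ?_
    obtain ⟨hx1, hx2⟩ := Subgroup.mem_inf.1 hx
    rw [Subgroup.mem_subgroupOf, hmem] at hx1 hx2
    refine Subtype.ext (El.ext (Equiv.ext fun i => ?_) (funext fun i => ?_))
    · by_cases h : S i
      · exact (hx2 i (not_not.2 h)).1
      · exact (hx1 i h).1
    · by_cases h : S i
      · exact (hx2 i (not_not.2 h)).2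
      · exact (hx1 i h).2
  · refine eq_top_iff.2 fun x _ => ?_
    obtain ⟨v, hv, hvi⟩ := exists_piece W hS x.2
    obtain ⟨u, hu, hui⟩ := exists_piece W (S := fun i => ¬ S i)
      (fun w hw i h h' => h ((apply_iff W hS hw i).1 h')) x.2
    let a : Wr W := ⟨⟨v, fun i => if S i then x.1.c i else 0⟩, hv⟩
    let b : Wr W := ⟨⟨u, fun i => if S i then 0 else x.1.c i⟩, hu⟩
    have hx : x = a * b := by
      refine Subtype.ext (El.ext (Equiv.ext fun i => ?_) (funext fun i => ?_))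
      · show x.1.s i = v (u i)
        rw [hui, show El.proj x.1 = x.1.s from rfl]
        by_cases h : S i
        · rw [if_neg (not_not.2 h), hvi, if_pos h]; rfl
        · rw [if_pos h, hvi, if_neg (show ¬ S (x.1.s i) from fun h' => h ((apply_iff W hS x.2 i).1 h'))]
      · show x.1.c i = (if S (u i) then x.1.c (u i) else 0) + if S i then 0 else x.1.c i
        rw [hui, show El.proj x.1 = x.1.s from rfl]
        by_cases h : S i
        · simp [h]
        · have h' : ¬ S (x.1.s i) := fun h' => h ((apply_iff W hS x.2 i).1 h')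
          simp [h, h']
    rw [hx]
    refine Subgroup.mul_mem_sup ?_ ?_
    · rw [Subgroup.mem_subgroupOf, hmem]
      intro i hi
      exact ⟨(hvi i).trans (if_neg hi), if_neg hi⟩
    · rw [Subgroup.mem_subgroupOf, hmem]
      intro i hi
      exact ⟨(hui i).trans (if_neg hi), if_pos (not_not.1 hi)⟩

theorem isPGroup_Wr : IsPGroup 2 (Wr W) := by
  rw [IsPGroup]
  intro x
  obtain ⟨k, hk⟩ := W.isPGroup' ⟨x.1.s, x.2⟩
  refine ⟨k + 1, Subtype.ext ?_⟩
  have h1 : (x.1 ^ 2 ^ k).s = 1 := by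
    have := map_pow El.proj x.1 (2 ^ k)
    exact this.trans (congrArg Subtype.val hk)
  rw [Subgroup.coe_pow, pow_succ, pow_mul, sq]
  refine El.ext ?_ (funext fun i => ?_)
  · rw [El.mul_s, h1, mul_one]; rfl
  · rw [El.mul_c, h1, Perm.one_apply, CharTwo.add_self_eq_zero]; rfl

theorem not_decG_Wr (htr : ∀ i j, Rel W i j) : ¬ DecG (Wr W) := by
  haveI := Fact.mk Nat.prime_two
  have hone : (⟨1, fun _ => 1⟩ : El Ω) ∈ Wr W := (mem_Wr W _).2 (one_mem _)
  refine not_decG_of_center (p := 2) (isPGroup_Wr W) ⟨_, hone⟩ fun x hx => ?_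
  have hc : ∀ y (hy : y ∈ Wr W), y * x.1 = x.1 * y := fun y hy =>
    congrArg Subtype.val (Subgroup.mem_center_iff.1 hx ⟨y, hy⟩)
  have hs : x.1.s = 1 := by
    refine Equiv.ext fun i => ?_
    have h := congrFun (congrArg El.c (hc ⟨1, Pi.single (x.1.s i) 1⟩ ((mem_Wr W _).2 (one_mem _)))) i
    simp only [El.mul_c, Perm.one_apply, Pi.single_eq_same] at h
    by_contra hne
    change x.1.s i ≠ i at hne
    rw [Pi.single_eq_of_ne hne.symm, add_comm, add_zero] at h
    exact one_ne_zero (add_eq_left.1 h)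
  have hconst : ∀ i j, x.1.c i = x.1.c j := by
    intro i j
    obtain ⟨w, hw, rfl⟩ := htr i j
    have h := congrFun (congrArg El.c (hc ⟨w, 0⟩ hw)) i
    simp only [El.mul_c, Pi.zero_apply, zero_add, add_zero] at h
    exact h
  by_cases h0 : ∀ i, x.1.c i = 0
  · exact Or.inl (Subtype.ext (El.ext hs (funext h0)))
  · push Not at h0
    obtain ⟨i, hi⟩ := h0
    refine Or.inr (Subtype.ext (El.ext hs (funext fun j => ?_)))
    show x.1.c j = 1
    rw [hconst j i]
    exact z2_one _ hi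

theorem moved (heven : Even (Fintype.card Ω)) (i : Ω) :
    ∃ w ∈ (W : Subgroup (Perm Ω)), w i ≠ i := by
  classical
  haveI := Fact.mk Nat.prime_two
  by_contra hcon
  push Not at hcon
  have hmod := W.isPGroup'.card_modEq_card_fixedPoints Ω
  rw [Nat.card_eq_fintype_card (α := Ω)] at hmod
  have hfix : i ∈ MulAction.fixedPoints (W : Subgroup (Perm Ω)) Ω := fun w => hcon w.1 w.2
  have h2 : 2 ∣ Nat.card (MulAction.fixedPoints (W : Subgroup (Perm Ω)) Ω) :=
    Nat.dvd_of_mod_eq_zero (Eq.trans (Eq.symm hmod) (Nat.mod_eq_zero_of_dvd (even_iff_two_dvd.1 heven)))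
  haveI : Nonempty (MulAction.fixedPoints (W : Subgroup (Perm Ω)) Ω) := ⟨⟨i, hfix⟩⟩
  have hgt : 1 < Nat.card (MulAction.fixedPoints (W : Subgroup (Perm Ω)) Ω) :=
    lt_of_lt_of_le one_lt_two (Nat.le_of_dvd Nat.card_pos h2)
  haveI := Finite.one_lt_card_iff_nontrivial.1 hgt
  obtain ⟨⟨j, hj⟩, hne⟩ := exists_ne (⟨i, hfix⟩ : MulAction.fixedPoints (W : Subgroup (Perm Ω)) Ω)
  have hji : j ≠ i := fun e => hne (Subtype.ext e)
  have hcomm : ∀ w ∈ (W : Subgroup (Perm Ω)), Equiv.swap i j * w = w * Equiv.swap i j := by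
    intro w hw
    have e : w * Equiv.swap i j * w⁻¹ = Equiv.swap (w i) (w j) := by
      refine Equiv.ext fun k => ?_
      rw [Equiv.swap_apply_apply w i j]
    rw [hcon w hw, show w j = j from hj ⟨w, hw⟩] at e
    exact (mul_inv_eq_iff_eq_mul.1 e).symm
  let K : Subgroup (Perm Ω) := (W : Subgroup (Perm Ω)) ⊔ Subgroup.zpowers (Equiv.swap i j)
  have hK : IsPGroup 2 K := by
    refine IsPGroup.to_sup_of_normal_left' W.isPGroup' ?_ ?_
    · exact IsPGroup.of_card (n := 1) (by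
        rw [Nat.card_zpowers, pow_one]
        exact orderOf_eq_prime (by rw [sq, Equiv.swap_mul_self]) (Equiv.swap_eq_one_iff.not.2 hji.symm))
    · rw [Subgroup.zpowers_le, Subgroup.mem_normalizer_iff]
      intro h
      constructor
      · intro hh
        rw [hcomm h hh, mul_inv_cancel_right]
        exact hh
      · intro hh
        have := hcomm _ hh
        rw [inv_mul_cancel_right, mul_assoc (Equiv.swap i j) h, mul_right_inj] at this
        rwa [← this, ← mul_assoc]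
  have hmemW : Equiv.swap i j ∈ (W : Subgroup (Perm Ω)) :=
    (W.is_maximal' hK le_sup_left) ▸ Subgroup.mem_sup_right (Subgroup.mem_zpowers _)
  exact hji (by simpa using hcon _ hmemW)

theorem sum_invariant (heven : Even (Fintype.card Ω)) {S : Ω → Prop} [DecidablePred S]
    (hS : ∀ w ∈ (W : Subgroup (Perm Ω)), ∀ i, S i → S (w i)) (c : Ω → ZMod 2)
    (hc : ∀ w ∈ (W : Subgroup (Perm Ω)), ∀ i, S i → c (w i) = c i) :
    ∑ i ∈ Finset.univ.filter S, c i = 0 := by
  haveI := Fact.mk Nat.prime_two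
  let T := {i : Ω // S i ∧ c i = 1}
  letI : MulAction (W : Subgroup (Perm Ω)) T :=
    { smul := fun w i => ⟨w.1 i.1, hS _ w.2 _ i.2.1, (hc _ w.2 _ i.2.1).trans i.2.2⟩
      one_smul := fun i => Subtype.ext rfl
      mul_smul := fun v w i => Subtype.ext rfl }
  have hmod := W.isPGroup'.card_modEq_card_fixedPoints T
  haveI : IsEmpty (MulAction.fixedPoints (W : Subgroup (Perm Ω)) T) := ⟨fun ⟨i, hi⟩ => by
    obtain ⟨w, hw, hne⟩ := moved W heven i.1
    exact hne (congrArg Subtype.val (hi ⟨w, hw⟩))⟩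
  rw [Nat.card_of_isEmpty (α := MulAction.fixedPoints (W : Subgroup (Perm Ω)) T),
    Nat.card_eq_fintype_card, Fintype.card_subtype] at hmod
  rw [Finset.sum_congr rfl fun i _ => z2_ite (c i), Finset.sum_boole, Finset.filter_filter,
    ZMod.natCast_eq_zero_iff_even, Nat.even_iff]
  exact hmod

theorem even_pair (i j : Ω) :
    (⟨1, Pi.single i 1 + Pi.single j 1⟩ : El Ω) ∈ EvW W := by
  refine (mem_EvW W _).2 ⟨one_mem _, ?_⟩
  simp [Finset.sum_add_distrib, CharTwo.add_self_eq_zero]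

theorem not_decG_EvW (heven : Even (Fintype.card Ω)) (h3 : 3 ≤ Fintype.card Ω) :
    ¬ DecG (EvW W) := by
  classical
  haveI := Fact.mk Nat.prime_two
  have hpE : IsPGroup 2 (EvW W) := (isPGroup_Wr W).to_le inf_le_left
  have hone : (⟨1, fun _ => 1⟩ : El Ω) ∈ EvW W := (mem_EvW W _).2 ⟨one_mem _, by
    simp [ZMod.natCast_eq_zero_iff_even.2 heven]⟩
  have hcent : ∀ x : EvW W, x ∈ Subgroup.center (EvW W) →
      x.1.s = 1 ∧ ∀ w ∈ (W : Subgroup (Perm Ω)), ∀ i, x.1.c (w i) = x.1.c i := by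
    intro x hx
    have hc : ∀ y (hy : y ∈ EvW W), y * x.1 = x.1 * y := fun y hy =>
      congrArg Subtype.val (Subgroup.mem_center_iff.1 hx ⟨y, hy⟩)
    refine ⟨Equiv.ext fun i => ?_, fun w hw i => ?_⟩
    · by_contra hne
      obtain ⟨k, hk1, hk2⟩ : ∃ k, k ≠ i ∧ k ≠ x.1.s i := by
        have : (({i, x.1.s i} : Finset Ω)ᶜ).Nonempty := by
          rw [← Finset.card_pos, Finset.card_compl]
          have := Finset.card_le_two (a := i) (b := x.1.s i)
          omega
        obtain ⟨k, hk⟩ := this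
        simp only [Finset.mem_compl, Finset.mem_insert, Finset.mem_singleton, not_or] at hk
        exact ⟨k, hk.1, hk.2⟩
      have h := congrFun (congrArg El.c (hc _ (even_pair W (x.1.s i) k))) i
      simp only [El.mul_c, Perm.one_apply, Pi.add_apply, Pi.single_eq_same,
        Pi.single_eq_of_ne hk2.symm, Pi.single_eq_of_ne hk1.symm,
        Pi.single_eq_of_ne (fun e => hne e.symm), add_zero] at h
      exact one_ne_zero (add_eq_left.1 ((add_comm _ _).trans (h.trans (by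
        rw [Pi.single_eq_of_ne (show i ≠ x.1.s i from fun e => hne e.symm), add_zero]))))
    · have h := congrFun (congrArg El.c (hc ⟨w, 0⟩ ((mem_EvW W _).2 ⟨hw, by simp⟩))) i
      simp only [El.mul_c, Pi.zero_apply, zero_add, add_zero] at h
      exact h.symm
  by_cases htr : ∀ i j, Rel W i j
  · refine not_decG_of_center (p := 2) hpE ⟨_, hone⟩ fun x hx => ?_
    obtain ⟨hs, hw⟩ := hcent x hx
    by_cases h0 : ∀ i, x.1.c i = 0
    · exact Or.inl (Subtype.ext (El.ext hs (funext h0)))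
    · push Not at h0
      obtain ⟨i, hi⟩ := h0
      refine Or.inr (Subtype.ext (El.ext hs (funext fun j => ?_)))
      obtain ⟨w, hw', rfl⟩ := htr i j
      show x.1.c (w i) = 1
      rw [hw w hw' i]
      exact z2_one _ hi
  rintro ⟨A, B, hA, hB, -, -, hcom, hint, hsup⟩
  have hout : ∀ i, ∃ j, ¬ Rel W i j := fun i => by
    by_contra h
    push Not at h
    exact htr fun a b => rel_trans W (rel_symm W (h a)) (h b)
  -- Membership of commutators
  have hcommA : ∀ C D : Subgroup (EvW W), (∀ a ∈ C, ∀ b ∈ D, a * b = b * a) → C ⊔ D = ⊤ →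
      ∀ e : EvW W, ∀ a ∈ C, a⁻¹ * e⁻¹ * a * e ∈ C := by
    intro C D hc hs e a ha
    obtain ⟨u, hu, v, hv, rfl⟩ := exists_mul hc hs e
    have h1 : a * u * v = v * (a * u) := hc _ (mul_mem ha hu) v hv
    have : a⁻¹ * (u * v)⁻¹ * a * (u * v) = a⁻¹ * u⁻¹ * a * u := by
      rw [mul_inv_rev, show a⁻¹ * (v⁻¹ * u⁻¹) * a * (u * v) = a⁻¹ * v⁻¹ * u⁻¹ * (a * u * v) by group]
      have h2 : v⁻¹ * u⁻¹ = u⁻¹ * v⁻¹ := (hc _ (inv_mem hu) _ (inv_mem hv)).symm
      rw [h1, mul_assoc a⁻¹, h2]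
      group
    rw [this]
    exact mul_mem (mul_mem (mul_mem (inv_mem ha) (inv_mem hu)) ha) hu
  let Kp : Subgroup (EvW W) → Ω → Prop := fun C i =>
    ∀ j, Rel W i j → ∀ b ∈ C, b.1.s j = j ∧ b.1.c j = b.1.c i
  -- on each orbit one of the factors acts centrally
  have hdich : ∀ i, Kp A i ∨ Kp B i := by
    intro i
    -- conjugates of moved points are moved
    have hmove : ∀ C D : Subgroup (EvW W), (∀ a ∈ C, ∀ b ∈ D, a * b = b * a) → C ⊔ D = ⊤ →
        ∀ j k, Rel W j k → ∀ a ∈ C, a.1.s j ≠ j → ∃ a' ∈ C, a'.1.s k ≠ k := by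
      rintro C D hc hs j _ ⟨w, hw, rfl⟩ a ha hne
      let e : EvW W := ⟨⟨w, 0⟩, (mem_EvW W _).2 ⟨hw, by simp⟩⟩
      obtain ⟨u, hu, v, hv, huv⟩ := exists_mul hc hs e
      refine ⟨u * a * u⁻¹, mul_mem (mul_mem hu ha) (inv_mem hu), ?_⟩
      have h1 : e * a * e⁻¹ = u * a * u⁻¹ := by
        rw [huv, mul_inv_rev, show u * v * a * (v⁻¹ * u⁻¹) = u * (v * a) * v⁻¹ * u⁻¹ by group,
          ← hc a ha v hv]
        group
      rw [← h1]
      show (w * a.1.s * w⁻¹) (w j) ≠ w j
      rw [Perm.mul_apply, Perm.mul_apply, Perm.inv_def, Equiv.symm_apply_apply]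
      exact fun h => hne (w.injective h)
    by_cases hAm : ∃ j, Rel W i j ∧ ∃ a ∈ A, a.1.s j ≠ j
    swap
    · left
      push Not at hAm
      intro j hij b hb
      refine ⟨hAm j hij b hb, ?_⟩
      obtain ⟨w, hw, rfl⟩ := hij
      obtain ⟨u, hu, v, hv, huv⟩ :=
        exists_mul hcom hsup (⟨⟨w, 0⟩, (mem_EvW W _).2 ⟨hw, by simp⟩⟩ : EvW W)
      have hwi : w i = v.1.s i := by
        have hvR : Rel W i (v.1.s i) := ⟨v.1.s, v.2.1, rfl⟩
        exact ((congrArg (fun z : EvW W => z.1.s i) huv).trans (hAm _ hvR u hu))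
      have h := congrFun (congrArg El.c (congrArg Subtype.val (hcom b hb v hv))) i
      simp only [Subgroup.coe_mul, El.mul_c, hAm i (rel_refl W i) b hb] at h
      rw [hwi]
      exact add_right_cancel (h.trans (add_comm _ _))
    by_cases hBm : ∃ j, Rel W i j ∧ ∃ b ∈ B, b.1.s j ≠ j
    swap
    · right
      push Not at hBm
      intro j hij b hb
      refine ⟨hBm j hij b hb, ?_⟩
      obtain ⟨w, hw, rfl⟩ := hij
      obtain ⟨u, hu, v, hv, huv⟩ :=
        exists_mul hcom hsup (⟨⟨w, 0⟩, (mem_EvW W _).2 ⟨hw, by simp⟩⟩ : EvW W)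
      have hwi : w i = u.1.s i := by
        have h1 := congrArg (fun z : EvW W => z.1.s i) huv
        exact h1.trans (congrArg u.1.s (hBm i (rel_refl W i) v hv))
      have h := congrFun (congrArg El.c (congrArg Subtype.val (hcom u hu b hb))) i
      simp only [Subgroup.coe_mul, El.mul_c, hBm i (rel_refl W i) b hb] at h
      rw [hwi]
      exact add_right_cancel (h.symm.trans (add_comm _ _))
    exfalso
    obtain ⟨j₁, hj₁, a₀, ha₀, ha₀j⟩ := hAm
    obtain ⟨j₂, hj₂, b₀, hb₀, hb₀j⟩ := hBm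
    obtain ⟨l, hl⟩ := hout i
    -- two movers move a point to the same place
    have hsame : ∀ a ∈ A, ∀ b ∈ B, ∀ k, Rel W i k → a.1.s k ≠ k → b.1.s k ≠ k →
        a.1.s k = b.1.s k := by
      intro a ha b hb k hk hak hbk
      let e : EvW W := ⟨⟨1, Pi.single (a.1.s k) 1 + Pi.single l 1⟩, even_pair W _ _⟩
      set q := a⁻¹ * e⁻¹ * a * e with hq
      have hqA : q ∈ A := hcommA A B hcom hsup e a ha
      have hqs : q.1.s = 1 := by
        show a.1.s⁻¹ * 1⁻¹ * a.1.s * 1 = 1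
        group
      have hqc : ∀ x, Rel W i x → q.1.c x =
          (if x = k then 1 else 0) + if x = a.1.s k then 1 else 0 := by
        intro x hx
        have hxl : x ≠ l := fun e => hl (e ▸ hx)
        have haxl : a.1.s x ≠ l := fun e => hl (rel_trans W hx ⟨a.1.s, a.2.1, e⟩)
        have hq1 : q.1.c x = a.1.c x + e.1.c (a.1.s x) + a.1.c x + e.1.c x := by
          simp only [hq, Subgroup.coe_mul, Subgroup.coe_inv, El.mul_c, El.inv_c, El.mul_s,
            El.inv_s, e, inv_one, Perm.one_apply, Perm.mul_apply, Perm.inv_def,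
            Equiv.symm_apply_apply]
        rw [hq1]
        simp only [e, Pi.add_apply, Pi.single_eq_of_ne hxl, Pi.single_eq_of_ne haxl, add_zero,
          Pi.single_apply, a.1.s.injective.eq_iff]
        generalize (if x = k then (1 : ZMod 2) else 0) = p₁
        generalize (if x = a.1.s k then (1 : ZMod 2) else 0) = p₂
        rw [add_comm (a.1.c x) p₁, add_assoc p₁, CharTwo.add_self_eq_zero, add_zero]
      have h := congrFun (congrArg El.c (congrArg Subtype.val (hcom q hqA b hb))) k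
      simp only [Subgroup.coe_mul, El.mul_c, hqs, Perm.one_apply] at h
      rw [add_comm (b.1.c k), add_left_inj, hqc _ (rel_trans W hk ⟨b.1.s, b.2.1, rfl⟩),
        hqc _ hk, if_pos rfl, if_neg (Ne.symm hak), if_neg hbk, zero_add, add_zero] at h
      by_contra hne
      rw [if_neg (Ne.symm hne)] at h
      exact zero_ne_one h
    obtain ⟨a, ha, hai⟩ := hmove A B hcom hsup j₁ i (rel_symm W hj₁) a₀ ha₀ ha₀j
    obtain ⟨b, hb, hbi⟩ := hmove B A (fun x hx y hy => (hcom y hy x hx).symm)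
      (by rw [sup_comm]; exact hsup) j₂ i (rel_symm W hj₂) b₀ hb₀ hb₀j
    set j := a.1.s i with hj
    have hbj : b.1.s i = j := (hsame a ha b hb i (rel_refl W i) hai hbi).symm
    have hij : Rel W i j := ⟨a.1.s, a.2.1, rfl⟩
    have hjl : j ≠ l := fun e => hl (e ▸ hij)
    have hil : i ≠ l := fun e => hl (e ▸ rel_refl W i)
    have hcm : ∀ x ∈ A, ∀ y ∈ B, ∀ k, x.1.c (y.1.s k) + y.1.c k = y.1.c (x.1.s k) + x.1.c k :=
      fun x hx y hy k => congrFun (congrArg El.c (congrArg Subtype.val (hcom x hx y hy))) k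
    obtain ⟨x, hx, y, hy, hxy⟩ :=
      exists_mul hcom hsup (⟨⟨1, Pi.single i 1 + Pi.single l 1⟩, even_pair W _ _⟩ : EvW W)
    have hxys : ∀ k, x.1.s (y.1.s k) = k := fun k =>
      (congrArg (fun z : EvW W => z.1.s k) hxy).symm
    have hxyc : ∀ k, (Pi.single i 1 + Pi.single l 1 : Ω → ZMod 2) k =
        x.1.c (y.1.s k) + y.1.c k := fun k => congrArg (fun z : EvW W => z.1.c k) hxy
    have he1 := hxyc i
    have he2 := hxyc j
    rw [Pi.add_apply, Pi.single_eq_same, Pi.single_eq_of_ne hil, add_zero] at he1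
    rw [Pi.add_apply, Pi.single_eq_of_ne hai, Pi.single_eq_of_ne hjl, add_zero] at he2
    have hyx : ∀ k, y.1.s (x.1.s k) = k := fun k => by
      have h1 : (x.1.s * y.1.s) k = (y.1.s * x.1.s) k :=
        congrArg (fun z : EvW W => z.1.s k) (hcom x hx y hy)
      exact h1.symm.trans (hxys k)
    by_cases hyi : y.1.s i = i
    · have hxi : x.1.s i = i := by simpa [hyi] using hxys i
      have h1 := hcm x hx b hb i
      rw [hbj, hxi, add_comm (b.1.c i), add_left_inj] at h1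
      have h2 := hcm a ha y hy i
      rw [hyi, ← hj, add_comm (a.1.c i), add_left_inj] at h2
      have hyj : y.1.s j = j := by
        show y.1.s (a.1.s i) = a.1.s i
        have h3 : (a.1.s * y.1.s) i = (y.1.s * a.1.s) i :=
          congrArg (fun z : EvW W => z.1.s i) (hcom a ha y hy)
        rw [Perm.mul_apply, hyi] at h3
        exact h3.symm
      rw [hyi] at he1
      rw [hyj, h1, ← h2] at he2
      exact zero_ne_one (he2.trans he1.symm)
    · have hxi : x.1.s i ≠ i := fun h => hyi (by simpa [h] using hyx i)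
      have h3 : y.1.s i = j := (hsame a ha y hy i (rel_refl W i) hai hyi).symm
      have hxi' : x.1.s i = j := (hsame x hx y hy i (rel_refl W i) hxi hyi).trans h3
      have h4 : y.1.s j = i := by rw [← hxi']; exact hyx i
      have h5 := hcm x hx y hy i
      rw [h3, hxi'] at h5
      rw [h3] at he1
      rw [h4] at he2
      rw [h5, add_comm (y.1.c j)] at he1
      exact zero_ne_one (he2.trans he1.symm)
  have hKinv : ∀ C, ∀ w ∈ (W : Subgroup (Perm Ω)), ∀ i, Kp C i → Kp C (w i) := by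
    intro C w hw i hi j hj b hb
    have hiw : Rel W i (w i) := ⟨w, hw, rfl⟩
    obtain ⟨h1, h2⟩ := hi j (rel_trans W hiw hj) b hb
    exact ⟨h1, h2.trans (hi _ hiw b hb).2.symm⟩
  have hKw : ∀ C, ∀ w ∈ (W : Subgroup (Perm Ω)), ∀ i, Kp C i → ∀ b ∈ C, b.1.c (w i) = b.1.c i :=
    fun C w hw i hi b hb => (hi (w i) ⟨w, hw, rfl⟩ b hb).2
  -- not everything is central in one factor
  have hnotall : ∀ C D : Subgroup (EvW W), C ≠ ⊥ → (∀ a ∈ D, ∀ b ∈ C, a * b = b * a) →
      D ⊔ C = ⊤ → D ⊓ C = ⊥ → ∃ i, ¬ Kp C i := by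
    intro C D hC hc hs hi0
    by_contra hall
    push Not at hall
    obtain ⟨z, hz, hz1⟩ : ∃ z ∈ C, z ≠ 1 := by
      by_contra h
      push Not at h
      exact hC ((Subgroup.eq_bot_iff_forall _).2 h)
    refine hz1 (Subgroup.mem_bot.1 (hi0 ▸ Subgroup.mem_inf.2 ⟨?_, hz⟩))
    -- commutators lie in D
    have hD : ∀ e₁ e₂ : EvW W, e₁⁻¹ * e₂⁻¹ * e₁ * e₂ ∈ D := by
      intro e₁ e₂
      obtain ⟨u, hu, v, hv, rfl⟩ := exists_mul hc hs e₁
      have hvc : ∀ g : EvW W, g * v = v * g := by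
        intro g
        obtain ⟨u', hu', v', hv', rfl⟩ := exists_mul hc hs g
        have hvv : v' * v = v * v' := by
          refine Subtype.ext (El.ext (Equiv.ext fun k => ?_) (funext fun k => ?_))
          · show v'.1.s (v.1.s k) = v.1.s (v'.1.s k)
            rw [(hall k k (rel_refl W k) v hv).1, (hall k k (rel_refl W k) v' hv').1,
              (hall k k (rel_refl W k) v hv).1]
          · show v'.1.c (v.1.s k) + v.1.c k = v.1.c (v'.1.s k) + v'.1.c k
            rw [(hall k k (rel_refl W k) v hv).1, (hall k k (rel_refl W k) v' hv').1, add_comm]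
        rw [mul_assoc, hvv, ← mul_assoc, hc u' hu' v hv, mul_assoc]
      have : (u * v)⁻¹ * e₂⁻¹ * (u * v) * e₂ = u⁻¹ * e₂⁻¹ * u * e₂ := by
        rw [mul_inv_rev, show v⁻¹ * u⁻¹ * e₂⁻¹ * (u * v) * e₂ = v⁻¹ * ((u⁻¹ * e₂⁻¹ * u) * v) * e₂
          by group, hvc, inv_mul_cancel_left]
      rw [this]
      exact hcommA D C hc hs e₂ u hu
    let Dv : AddSubgroup (Ω → ZMod 2) :=
      { carrier := {c | ∃ d ∈ D, d.1.s = 1 ∧ d.1.c = c}
        zero_mem' := ⟨1, one_mem _, rfl, rfl⟩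
        add_mem' := fun {c c'} ⟨d, hd, hd1, hd2⟩ ⟨d', hd', hd1', hd2'⟩ =>
          ⟨d * d', mul_mem hd hd', by
            show d.1.s * d'.1.s = 1
            rw [hd1, hd1', one_mul], funext fun k => by
            show d.1.c (d'.1.s k) + d'.1.c k = _
            rw [hd1', hd2, hd2']; rfl⟩
        neg_mem' := fun {c} ⟨d, hd, hd1, hd2⟩ => ⟨d, hd, hd1, by
          rw [hd2]; funext k; exact (CharTwo.neg_eq _).symm⟩ }
    have hpair : ∀ k m, Rel W k m → (Pi.single k 1 + Pi.single m 1 : Ω → ZMod 2) ∈ Dv := by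
      rintro k _ ⟨w, hw, rfl⟩
      obtain ⟨v, hv, hvk⟩ := exists_piece W (S := fun x => Rel W k x)
        (fun u hu x hx => rel_trans W hx ⟨u, hu, rfl⟩) hw
      obtain ⟨l, hl⟩ := hout k
      have hvl : v l = l := (hvk l).trans (if_neg hl)
      have hvkk : v k = w k := (hvk k).trans (if_pos (rel_refl W k))
      let e₁ : EvW W := ⟨⟨v, 0⟩, (mem_EvW W _).2 ⟨hv, by simp⟩⟩
      let e₂ : EvW W := ⟨⟨1, Pi.single (v k) 1 + Pi.single l 1⟩, even_pair W _ _⟩
      refine ⟨_, hD e₁ e₂, ?_, funext fun x => ?_⟩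
      · show v⁻¹ * 1⁻¹ * v * 1 = 1
        group
      · have hq : (e₁⁻¹ * e₂⁻¹ * e₁ * e₂).1.c x = e₂.1.c (v x) + e₂.1.c x := by
          simp [e₁, e₂, El.mul_c, El.inv_c, El.mul_s, El.inv_s, Perm.inv_def]
        rw [hq]
        simp only [e₂, Pi.add_apply, Pi.single_apply, v.injective.eq_iff, ← hvkk,
          show (v x = l) = (x = l) from propext ⟨fun h => v.injective (h.trans hvl.symm), fun h => h ▸ hvl⟩]
        exact z2_three _ _ _
    have hr : ∀ k, ∃ m, Rel W k m := fun k => ⟨k, rel_refl W k⟩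
    let st : Setoid Ω := ⟨Rel W, rel_refl W, rel_symm W, rel_trans W⟩
    let r : Ω → Ω := fun k => (Quotient.mk st k).out
    have hrk : ∀ k, Rel W k (r k) := fun k => rel_symm W (Quotient.mk_out (s := st) k)
    have hrr : ∀ k m, Rel W k m → r k = r m := fun k m h =>
      congrArg Quotient.out (Quotient.sound (s := st) h)
    have hzc : z.1.c ∈ Dv := by
      have hsum : z.1.c = ∑ k : Ω,
          (if z.1.c k = 1 then (Pi.single k 1 + Pi.single (r k) 1 : Ω → ZMod 2) else 0) := by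
        funext m
        rw [Finset.sum_apply]
        have hterm : ∀ k, (if z.1.c k = 1 then (Pi.single k 1 + Pi.single (r k) 1 : Ω → ZMod 2) else 0) m
            = (if k = m then z.1.c k else 0) + if r k = m then z.1.c k else 0 := by
          intro k
          rcases z2_cases (z.1.c k) with h | h <;>
            simp [h, Pi.single_apply, eq_comm]
        rw [Finset.sum_congr rfl fun k _ => hterm k, Finset.sum_add_distrib,
          Finset.sum_ite_eq', if_pos (Finset.mem_univ _), ← Finset.sum_filter,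
          sum_invariant W heven (S := fun k => r k = m)
            (fun w hw k hk => (hrr _ _ (rel_symm W ⟨w, hw, rfl⟩)).trans hk) z.1.c
            (fun w hw k _ => hKw C w hw k (hall k) z hz), add_zero]
      rw [hsum]
      refine AddSubgroup.sum_mem _ fun k _ => ?_
      split_ifs
      · exact hpair _ _ (hrk k)
      · exact Dv.zero_mem
    obtain ⟨d, hd, hd1, hd2⟩ := hzc
    have hdz : d = z := Subtype.ext (El.ext (hd1.trans (Equiv.ext fun k =>
      ((hall k k (rel_refl W k) z hz).1).symm)) hd2)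
    exact hdz ▸ hd
  obtain ⟨i, hi⟩ := hnotall A B hA (fun x hx y hy => (hcom y hy x hx).symm)
    (by rw [sup_comm]; exact hsup) (by rw [inf_comm]; exact hint)
  have hiB : Kp B i := (hdich i).resolve_left hi
  obtain ⟨l, hl⟩ := hnotall B A hB hcom hsup hint
  have hlA : Kp A l := (hdich l).resolve_right hl
  obtain ⟨x, hx, y, hy, hxy⟩ :=
    exists_mul hcom hsup (⟨⟨1, Pi.single i 1 + Pi.single l 1⟩, even_pair W _ _⟩ : EvW W)
  have hxys : ∀ k, x.1.s (y.1.s k) = k := fun k =>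
    (congrArg (fun z : EvW W => z.1.s k) hxy).symm
  have hxyc : ∀ k, (Pi.single i 1 + Pi.single l 1 : Ω → ZMod 2) k = x.1.c k + y.1.c k := by
    intro k
    refine (congrArg (fun z : EvW W => z.1.c k) hxy).trans ?_
    show x.1.c (y.1.s k) + y.1.c k = _
    by_cases h : Kp B k
    · rw [(h k (rel_refl W k) y hy).1]
    · rw [((hdich k).resolve_right h (y.1.s k) ⟨y.1.s, y.2.1, rfl⟩ x hx).2]
  have hinvB : ∀ w ∈ (W : Subgroup (Perm Ω)), ∀ k, ¬ Kp B k → ¬ Kp B (w k) := fun w hw k h h' =>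
    h ((apply_iff W (hKinv B) hw k).1 h')
  have h1 := sum_invariant W heven (hKinv B) y.1.c (fun w hw k hk => hKw B w hw k hk y hy)
  have h2 := sum_invariant W heven hinvB x.1.c
    (fun w hw k hk => hKw A w hw k ((hdich k).resolve_right hk) x hx)
  have hx0 : ∑ k, x.1.c k = 0 := x.2.2
  rw [← Finset.sum_filter_add_sum_filter_not Finset.univ (Kp B), h2, add_zero] at hx0
  have hsum : ∑ k ∈ Finset.univ.filter (Kp B), (Pi.single i 1 + Pi.single l 1 : Ω → ZMod 2) k = 0 := by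
    rw [Finset.sum_congr rfl fun k _ => hxyc k, Finset.sum_add_distrib, h1, hx0, add_zero]
  simp [Finset.sum_add_distrib, Finset.sum_pi_single', hiB, hl] at hsum

end Cfsg.Agent.TwoGroups.AltSylowSplit
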